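import Mathlib.Algebra.BigOperators.Fin
import Mathlib.Algebra.BigOperators.Ring.Finset
import Mathlib.Algebra.GCDMonoid.Finset
import Mathlib.Algebra.GCDMonoid.Nat
import Mathlib.Data.Fin.Tuple.Basic
import Mathlib.Data.Fintype.BigOperators
import Mathlib.Data.Rat.Cast.Order
import Mathlib.Tactic.Linarith
import Mathlib.Tactic.Ring

/-!
# The numerical argument for S3345 (helper68)
-/

set_option autoImplicit false

namespace Groth.Agent.Models.H68.ChainNum

open Finset

theorem sum_single_quad {n : ℕ} (A : Fin n → Fin n → ℤ) (i : Fin n) :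
    (∑ q : Fin n × Fin n, (Pi.single i 1 : Fin n → ℤ) q.1 * (Pi.single i 1 : Fin n → ℤ) q.2 * A q.2 q.1) =
      A i i := by
  rw [Fintype.sum_eq_single (i, i)]
  · simp
  · rintro ⟨j, k⟩ h
    by_cases hj : j = i
    · subst hj
      have hk : k ≠ j := fun hk => h (by rw [hk])
      simp [Pi.single_eq_of_ne hk]
    · simp [Pi.single_eq_of_ne hj]

theorem chain_antitone {s : ℕ} (F : Fin (s + 1) → ℕ) (h : ∀ j : Fin s, F j.succ ≤ F j.castSucc)
    (j : Fin (s + 1)) : F j ≤ F 0 := by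
  induction j using Fin.induction with
  | zero => exact le_rfl
  | succ j ih => exact (h j).trans ih

theorem chain_monotone {s : ℕ} (F : Fin (s + 1) → ℕ) (h : ∀ j : Fin s, F j.castSucc ≤ F j.succ)
    (j : Fin (s + 1)) : F 0 ≤ F j := by
  induction j using Fin.induction with
  | zero => exact le_rfl
  | succ j ih => exact ih.trans (h j)

/-- The numerical core of S3345. `A j i` is the degree of `O(Γ_j)` on `Γ_i`. -/
theorem core {n : ℕ} (m : Fin n → ℕ) (hm : ∀ i, 0 < m i) (hg : Finset.univ.gcd m = 1)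
    (A : Fin n → Fin n → ℤ) (w h : Fin n → ℕ)
    (hsum : ∀ j, ∑ i, (m i : ℤ) * A j i = 0)
    (hneg : ∀ a : Fin n → ℤ, (∑ q : Fin n × Fin n, a q.1 * a q.2 * A q.2 q.1) ≤ 0 ∧
      ((∑ q : Fin n × Fin n, a q.1 * a q.2 * A q.2 q.1) = 0 ↔ ∃ c : ℚ, ∀ i, (a i : ℚ) = c * (m i : ℚ)))
    (hmin : ∀ i, ¬ (h i = 0 ∧ A i i = -(w i : ℤ)))
    (hdvd : ∀ i, (w i : ℤ) ∣ A i i)
    (H0 H1 : (Fin n → ℕ) → ℕ) {s : ℕ} (a : Fin (s + 1) → Fin n → ℕ)
    (ha0 : a 0 = fun _ => 1) (has : a (Fin.last s) = m)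
    (hstep : ∀ j : Fin s, ∃ i, a j.succ = a j.castSucc + Pi.single i 1)
    (hE : ∀ (b : Fin n → ℕ) (i : Fin n), (∀ j, b j + (if j = i then 1 else 0) ≤ m j) →
      (((H0 (fun j => b j + if j = i then 1 else 0) : ℤ) - H1 (fun j => b j + if j = i then 1 else 0)) -
        ((H0 b : ℤ) - H1 b)) = -(∑ j, (b j : ℤ) * A i j) + ((w i : ℤ) - h i))
    (h0mono : ∀ j : Fin s, H0 (a j.succ) ≤ H0 (a j.castSucc)) (h0pos : ∀ j, 0 < H0 (a j))
    (h00 : H0 (a 0) = 1) (h1mono : ∀ j : Fin s, H1 (a j.castSucc) ≤ H1 (a j.succ)) :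
    H1 (a 0) ≤ H1 (a (Fin.last s)) ∧ (a 0 ≠ a (Fin.last s) → H1 (a 0) < H1 (a (Fin.last s))) := by
  have hH0 : ∀ j, H0 (a j) = 1 := by
    intro j
    have h1 : H0 (a j) ≤ H0 (a 0) := chain_antitone (fun j => H0 (a j)) h0mono j
    have h2 := h0pos j
    omega
  have hH1 : ∀ j, H1 (a 0) ≤ H1 (a j) := chain_monotone (fun j => H1 (a j)) h1mono
  refine ⟨hH1 _, fun hne => ?_⟩
  rcases s with _ | s
  · exact absurd rfl hne
  obtain ⟨i, hi⟩ := hstep (Fin.last s)
  rw [Fin.succ_last] at hi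
  set b := a (Fin.last s).castSucc with hb
  have hbi : (fun j => b j + if j = i then 1 else 0) = a (Fin.last (s + 1)) := by
    rw [hi]
    funext j
    simp only [Pi.add_apply, Pi.single_apply]
  have hle : ∀ j, b j + (if j = i then 1 else 0) ≤ m j := by
    intro j
    rw [← has, ← hbi]
  have hE1 := hE b i hle
  rw [hbi, hH0, hb, hH0, ← hb] at hE1
  have hbm : ∀ j, (b j : ℤ) = (m j : ℤ) - (if j = i then 1 else 0) := by
    intro j
    rw [← has, ← hbi]
    push_cast
    ring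
  have hsum' : (∑ j, (b j : ℤ) * A i j) = - A i i := by
    have h1 : ∀ j, (b j : ℤ) * A i j = (m j : ℤ) * A i j - (if j = i then A i j else 0) := by
      intro j
      rw [hbm j]
      split_ifs <;> ring
    rw [Finset.sum_congr rfl fun j _ => h1 j, Finset.sum_sub_distrib, hsum i, Finset.sum_ite_eq' univ i]
    simp
  rw [hsum'] at hE1
  have hneg1 : A i i < 0 := by
    have h1 := hneg (Pi.single i 1)
    rw [sum_single_quad] at h1
    refine lt_of_le_of_ne h1.1 fun h0 => hne ?_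
    obtain ⟨c, hc⟩ := h1.2.1 h0
    have hci : (1 : ℚ) = c * m i := by
      have := hc i
      simpa using this
    have hc0 : c ≠ 0 := by
      rintro rfl
      simp at hci
    have huniq : ∀ j, j = i := by
      intro j
      by_contra hj
      have h2 := hc j
      rw [Pi.single_eq_of_ne hj] at h2
      have h3 : (m j : ℚ) ≠ 0 := by exact_mod_cast (hm j).ne'
      exact (mul_ne_zero hc0 h3) (by simpa using h2.symm)
    rw [ha0, has]
    funext j
    have h4 : Finset.univ.gcd m = m j := by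
      have : (Finset.univ : Finset (Fin n)) = {j} := by
        ext k
        simp [huniq k, huniq j]
      rw [this, Finset.gcd_singleton, normalize_eq]
    rw [← h4, hg]
  have hw : (w i : ℤ) ≤ - A i i := Int.le_of_dvd (by omega) ((hdvd i).neg_right)
  have hmini := hmin i
  have h1 := hH1 (Fin.last s).castSucc
  rw [← hb] at h1
  push_cast at hE1
  have h2 : ¬ (h i = 0 ∧ A i i = -(w i : ℤ)) := hmini
  by_contra hcon
  apply h2
  constructor <;> omega

end Groth.Agent.Models.H68.ChainNum
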