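import Groth.Prelude.Def_ModelsG
import Groth.Prelude.Def_Lef
import Groth.Agent.VarietyA.EulerLES
import Groth.Agent.Ega3B.HLes
import Groth.Agent.Sga2.LefPow644
import Groth.Agent.CurvesC.QuotZero

/-!
# Monotonicity of the lengths of `H^0` and `H^1` of `O_X/I` in the ideal `I` (helper68)

`len R F i = length_R H^i(X, F)` (kept as a constant: the kernel is slow on `Module.length R (Coh.HH X F i)`).
For ideal sheaves `I ≤ J` on a scheme `X` over `Spec R`:
* `len_one_le`: if `H^2` of the kernel of `O/I → O/J` vanishes then `len (O/J) 1 ≤ len (O/I) 1`;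
* `len_zero_le`: if `Γ(V(I), O) → Γ(V(J), O)` is injective then `len (O/I) 0 ≤ len (O/J) 0`;
* `len_zero_pos`: `0 < len (O/I) 0` if `Γ(V(I), O)` is nontrivial.
-/

set_option autoImplicit false
universe u

open CategoryTheory CategoryTheory.Limits AlgebraicGeometry Opposite TopologicalSpace

namespace Groth.Agent.Models.H68.QuotMono

open Groth.Agent.VarietyA Groth.Agent.Ega3B.HLes

variable {X : Scheme.{u}}

theorem epi_quotMap {I J : X.IdealSheafData} (h : I ≤ J) : Epi (Lef.quotMap h) := by
  have := Sga2.LefPow644.epi_toSubscheme J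
  exact epi_of_epi_fac (Sga2.LefPow644.toSubscheme_quotMap h)

/-- The short exact sequence `0 → ker → O/I → O/J → 0`. -/
noncomputable def seq {I J : X.IdealSheafData} (h : I ≤ J) : ShortComplex X.Modules :=
  ShortComplex.mk (kernel.ι (Lef.quotMap h)) (Lef.quotMap h) (kernel.condition _)

theorem shortExact_seq {I J : X.IdealSheafData} (h : I ≤ J) : (seq h).ShortExact where
  exact := ShortComplex.exact_of_f_is_kernel _ (kernelIsKernel _)
  mono_f := inferInstanceAs (Mono (kernel.ι (Lef.quotMap h)))
  epi_g := epi_quotMap h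

/-- `H^1(X, O/I) → H^1(X, O/J)` is surjective if `H^2` of the kernel vanishes. -/
theorem surjective_one {I J : X.IdealSheafData} (h : I ≤ J)
    (h2 : Subsingleton (Coh.HH X (kernel (Lef.quotMap h)) 2)) :
    Function.Surjective (hmap (Lef.quotMap h) 1) := fun x =>
  ((ab_exact₃ (shortExact_abShort (shortExact_seq h)) 1) x).1
    (@Subsingleton.elim (Coh.HH X (kernel (Lef.quotMap h)) 2) h2 _ _)

/-- On `H^0` the map of `O/I → O/J` is injective if the restriction `Γ(V(I), O) → Γ(V(J), O)` is. -/
theorem injective_zero {I J : X.IdealSheafData} (h : I ≤ J)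
    (hinj : Function.Injective (Scheme.IdealSheafData.inclusion h).appTop) :
    Function.Injective (hmap (Lef.quotMap h) 0) := by
  intro x y hxy
  apply (CurvesB.HZero.equivAdd (ClSub.quotMod I)).injective
  apply hinj
  have hx := (CurvesB.HZero.equivAdd_map (Lef.quotMap h) x).trans (Sga2.LefBasic.quotMap_app_top h _)
  have hy := (CurvesB.HZero.equivAdd_map (Lef.quotMap h) y).trans (Sga2.LefBasic.quotMap_app_top h _)
  exact hx.symm.trans ((congrArg _ hxy).trans hy)

/-- The ring `Γ(V(I), O)` being a field, the restriction to a smaller nonempty closed subscheme is injective. -/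
theorem injective_of_isField {I J : X.IdealSheafData} (h : I ≤ J) (hI : IsField Γ(I.subscheme, ⊤))
    (hJ : Nontrivial Γ(J.subscheme, ⊤)) :
    Function.Injective (Scheme.IdealSheafData.inclusion h).appTop := by
  let _ := hI.toField
  exact RingHom.injective (Scheme.IdealSheafData.inclusion h).appTop.hom

variable (R : Type u) [CommRing R] [X.Over (Spec (CommRingCat.of R))]

/-- `length_R H^i(X, F)`. -/
noncomputable def len (F : X.Modules) (i : ℕ) : ℕ∞ := Module.length R (Coh.HH X F i)

theorem len_le_of_surjective {F G : X.Modules} (φ : F ⟶ G) (i : ℕ)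
    (h : Function.Surjective (hmap φ i)) : len R G i ≤ len R F i :=
  Module.length_le_of_surjective (EulerLES.mapA R φ i) h

theorem len_le_of_injective {F G : X.Modules} (φ : F ⟶ G) (i : ℕ)
    (h : Function.Injective (hmap φ i)) : len R F i ≤ len R G i :=
  Module.length_le_of_injective (EulerLES.mapA R φ i) h

theorem len_pos (F : X.Modules) (i : ℕ) (h : Nontrivial (Coh.HH X F i)) : 0 < len R F i :=
  Module.length_pos

theorem len_one_le {I J : X.IdealSheafData} (h : I ≤ J)
    (h2 : Subsingleton (Coh.HH X (kernel (Lef.quotMap h)) 2)) :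
    len R (ClSub.quotMod J) 1 ≤ len R (ClSub.quotMod I) 1 :=
  len_le_of_surjective R _ 1 (surjective_one h h2)

theorem len_zero_le {I J : X.IdealSheafData} (h : I ≤ J)
    (hinj : Function.Injective (Scheme.IdealSheafData.inclusion h).appTop) :
    len R (ClSub.quotMod I) 0 ≤ len R (ClSub.quotMod J) 0 :=
  len_le_of_injective R _ 0 (injective_zero h hinj)

theorem len_zero_pos {I : X.IdealSheafData} (h : Nontrivial Γ(I.subscheme, ⊤)) :
    0 < len R (ClSub.quotMod I) 0 :=
  len_pos R _ 0 (CurvesC.QuotZero.addQuot I).toEquiv.nontrivial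

end Groth.Agent.Models.H68.QuotMono
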