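import Groth.Prelude.Def_ModelsG
import Groth.Agent.Models.DVRGeneric2
import Groth.Agent.Models.H68.QuotMono
import Groth.Agent.Sga67.CohBasic
import Groth.Agent.VarietyB.DegCartier
import Groth.Agent.CurvesC.ModVanish
import Groth.Agent.S0002
import Groth.Agent.S0404

/-!
# Vanishing of `H^i`, `i ≥ 2`, and finite length, for models of curves (helper68)

`p : X ⟶ Spec R` proper over a discrete valuation ring.
* `dim_fiber_le`: if `p` is flat and the generic fibre `C` has dimension `≤ 1`, so has the closed fibre;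
* `subsingleton_HH`: then `H^i(X, M) = 0` for `i ≥ 2` and `M` coherent;
* `len_ne_top`: `H^i(X, O/I)` has finite length if `specialFibreIdeal ≤ I`;
* `lengthH_one_le`, `lengthH_zero_le`, `lengthH_zero_pos`: monotonicity in the ideal.
-/

set_option autoImplicit false
universe u

open CategoryTheory CategoryTheory.Limits AlgebraicGeometry Opposite TopologicalSpace

namespace Groth.Agent.Models.H68.FibGood

open QuotMono

theorem dim_fiber {X Y : Scheme.{u}} (f : X ⟶ Y) (y : Y) :
    topologicalKrullDim (f.fiber y) = topologicalKrullDim (f ⁻¹' {y}) :=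
  IsHomeomorph.topologicalKrullDim_eq (f.fiberHomeo y) (f.fiberHomeo y).isHomeomorph

section DVR

variable {R : Type u} [CommRing R] [IsDomain R] [IsDiscreteValuationRing R] {C X : Scheme.{u}}
  {p : X ⟶ Spec (CommRingCat.of R)} {f : C ⟶ Spec (CommRingCat.of (FractionRing R))}

/-- the closed fibre of a model of a curve has dimension at most one. -/
theorem dim_fiber_le [Flat p] [LocallyOfFiniteType p] [QuasiCompact p] [QuasiSeparated p] {g : C ⟶ X}
    (hg : IsPullback g f p (Spec.map (CommRingCat.ofHom (algebraMap R (FractionRing R)))))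
    (hdim : topologicalKrullDim C ≤ 1) :
    topologicalKrullDim (p.fiber (IsLocalRing.closedPoint R)) ≤ 1 := by
  by_contra hgt
  rw [not_le] at hgt
  have : LocallyOfFinitePresentation p := inferInstance
  have hopen := Groth.Agent.S0404.result p 1
  have hη : ∀ s : Spec (CommRingCat.of R), s ∈ {s : Spec (CommRingCat.of R) | 1 < topologicalKrullDim (p.fiber s)} :=
    fun s => ((IsLocalRing.specializes_closedPoint (R := R) s).mem_open hopen hgt :)
  let η : Spec (CommRingCat.of R) := Spec.map (CommRingCat.ofHom (algebraMap R (FractionRing R)))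
    (IsLocalRing.closedPoint (FractionRing R))
  have h1 := Groth.Agent.Models.DVRGeneric.isOpenImmersion_generic R (FractionRing R)
  have h2 := Groth.Agent.Models.DVRGeneric.isOpenImmersion_of_isPullback hg
  have h3 := Groth.Agent.Models.DVRGeneric.opensRange_eq_of_isPullback hg
  have h4 : Set.range g = p ⁻¹' {η} := by
    have h5 := congrArg (fun U : X.Opens => (U : Set X)) h3
    have h6 : Set.range g = p ⁻¹' (Set.range (Spec.map
      (CommRingCat.ofHom (algebraMap R (FractionRing R))))) := by simpa using h5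
    rw [h6]
    congr 1
    ext x
    constructor
    · rintro ⟨y, rfl⟩
      rw [Set.mem_singleton_iff, Subsingleton.elim y (IsLocalRing.closedPoint (FractionRing R))]
    · rintro rfl
      exact ⟨_, rfl⟩
  have h5 : topologicalKrullDim (p ⁻¹' {η}) = topologicalKrullDim C := by
    have e1 : C ≃ₜ Set.range g := g.isOpenEmbedding.isEmbedding.toHomeomorph
    have e2 : C ≃ₜ (p ⁻¹' {η} : Set X) := e1.trans (Homeomorph.setCongr h4)
    exact (IsHomeomorph.topologicalKrullDim_eq e2 e2.isHomeomorph).symm
  have h6 := hη η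
  rw [Set.mem_ofPred_eq, dim_fiber, h5] at h6
  exact absurd hdim (not_le.2 h6)

theorem dim_fiber_le_of_isModel (hX : Models.IsModel R X p C f) [QuasiSeparated p]
    (hdim : topologicalKrullDim C ≤ 1) :
    topologicalKrullDim (p.fiber (IsLocalRing.closedPoint R)) ≤ 1 := by
  obtain ⟨h1, h2, h3, g, hg⟩ := hX
  exact dim_fiber_le hg hdim

theorem subsingleton_HH (p : X ⟶ Spec (CommRingCat.of R)) [IsProper p]
    (hdim : topologicalKrullDim (p.fiber (IsLocalRing.closedPoint R)) ≤ 1)
    (M : X.Modules) (hM : Coh.IsCoh M) (i : ℕ) (hi : 2 ≤ i) : Subsingleton (Coh.HH X M i) :=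
  CurvesC.ModVanish.subsingleton_HH_of_fiber p _ rfl 1 (by simpa using hdim) M hM i (by omega)

end DVR

/-- A finite module over a local ring killed by the maximal ideal has finite length. -/
theorem isFiniteLength_of_killed {R : Type*} [CommRing R] [IsLocalRing R] {M : Type*} [AddCommGroup M]
    [Module R M] [Module.Finite R M] (h : ∀ r ∈ IsLocalRing.maximalIdeal R, ∀ m : M, r • m = 0) :
    IsFiniteLength R M := by
  have ht : Module.IsTorsionBySet R M (IsLocalRing.maximalIdeal R : Set R) := fun m r => h r r.2 m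
  let _ : Module (R ⧸ IsLocalRing.maximalIdeal R) M := ht.module
  have : IsScalarTower R (R ⧸ IsLocalRing.maximalIdeal R) M := ht.isScalarTower
  have : Module.Finite (R ⧸ IsLocalRing.maximalIdeal R) M :=
    Module.Finite.of_restrictScalars_finite R _ M
  let _ := Ideal.Quotient.field (IsLocalRing.maximalIdeal R)
  rw [← Module.length_ne_top_iff,
    Module.length_eq_of_surjective (S := R) (R := R ⧸ IsLocalRing.maximalIdeal R)
      Ideal.Quotient.mk_surjective]
  exact Module.length_ne_top

section Killed

variable {R : Type u} [CommRing R] {X : Scheme.{u}} [X.Over (Spec (CommRingCat.of R))]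

/-- If a global function acts as zero on all the sections of `M` then it acts as zero on cohomology. -/
theorem smul_eq_zero_of_smulAb {M : X.Modules} (r : Coh.Γtop X) (h : Coh.smulAb M r = 0) (i : ℕ)
    (x : Coh.HH X M i) : r • x = 0 := by
  change Sheaf.H.map (Coh.smulAb M r) i x = 0
  rw [h]
  change ((Sheaf.functorH _ i).map (0 : Coh.toAb M ⟶ Coh.toAb M)).hom x = 0
  rw [Functor.map_zero]
  rfl

theorem appTop_eq_zero (I : X.IdealSheafData) (J : Ideal R)
    (hI : (Curv2.idealSheaf R J).comap (X ↘ Spec (CommRingCat.of R)) ≤ I) {r : R} (hr : r ∈ J) :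
    I.subschemeι.appTop (Coh.toGlobal (X ↘ Spec (CommRingCat.of R)) r) = 0 := by
  have h1 : Curv2.idealSheaf R J ≤ (I.subschemeι ≫ (X ↘ Spec (CommRingCat.of R))).ker := by
    have := Scheme.IdealSheafData.le_map_iff_comap_le.2 hI
    simpa [Scheme.IdealSheafData.map] using this
  have h2 : (Scheme.ΓSpecIso (CommRingCat.of R)).inv.hom r ∈
      (Curv2.idealSheaf R J).ideal ⟨⊤, isAffineOpen_top _⟩ := by
    have h := (Scheme.IdealSheafData.equivOfIsAffine (X := Spec (CommRingCat.of R))).apply_symm_apply
      (J.map (Scheme.ΓSpecIso (CommRingCat.of R)).inv.hom)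
    rw [Scheme.IdealSheafData.equivOfIsAffine_apply, Scheme.IdealSheafData.equivOfIsAffine_symm_apply] at h
    rw [Curv2.idealSheaf, h]
    exact Ideal.mem_map_of_mem _ hr
  have h3 := Scheme.Hom.ideal_ker_le (I.subschemeι ≫ (X ↘ Spec (CommRingCat.of R))) ⟨⊤, isAffineOpen_top _⟩
    (h1 ⟨⊤, isAffineOpen_top _⟩ h2)
  rw [RingHom.mem_ker] at h3
  rw [Scheme.Hom.comp_app] at h3
  exact h3

/-- functions vanishing on `V(I)` act as zero on `O/I`. -/
theorem smulAb_quotMod (I : X.IdealSheafData) (r : Γ(X, ⊤)) (hr : I.subschemeι.appTop r = 0) :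
    Coh.smulAb (ClSub.quotMod I) r = 0 := by
  ext U m
  rw [Coh.smulAb_app]
  have h1 : I.subschemeι.app U.unop (Coh.resTop X U r) = 0 := by
    have h2 := congr($(I.subschemeι.naturality (homOfLE (le_top (a := U.unop))).op) r)
    change I.subschemeι.app U.unop (X.presheaf.map (homOfLE (le_top (a := U.unop))).op r) = _ at h2
    refine h2.trans ?_
    change I.subscheme.presheaf.map _ (I.subschemeι.appTop r) = 0
    rw [hr, map_zero]
  have h2 : ∀ m : Γ(I.subscheme, I.subschemeι ⁻¹ᵁ U.unop),
      I.subschemeι.app U.unop (Coh.resTop X U r) * m = 0 := fun m => by rw [h1, zero_mul]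
  exact h2 m

end Killed

section Good

variable {R : Type u} [CommRing R] [IsLocalRing R] [IsNoetherianRing R]

/-- Cohomology of `O/I` has finite length over `R` if the maximal ideal of `R` vanishes on `V(I)`. -/
theorem len_ne_top {X : Scheme.{u}} [X.Over (Spec (CommRingCat.of R))]
    [IsProper (X ↘ Spec (CommRingCat.of R))] {I : X.IdealSheafData}
    (hI : (Curv2.idealSheaf R (IsLocalRing.maximalIdeal R)).comap (X ↘ Spec (CommRingCat.of R)) ≤ I) (i : ℕ) :
    len R (ClSub.quotMod I) i ≠ ⊤ := by
  have h1 := Groth.Agent.S0002.result R X _ (VarietyB.DegCartier.isCoh_quotMod I) i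
  exact Module.length_ne_top_iff.2 (isFiniteLength_of_killed fun r hr m =>
    smul_eq_zero_of_smulAb _ (smulAb_quotMod I _ (appTop_eq_zero I (IsLocalRing.maximalIdeal R) hI hr)) i m)

end Good

section LengthH

variable {R : Type u} [CommRing R] [IsDomain R] [IsDiscreteValuationRing R]
  (X : Over (Spec (CommRingCat.of R)))

theorem lengthH_eq (F : X.left.Modules) (i : ℕ) : Models.lengthH R X F i = (len R F i).toNat := rfl

variable [IsProper X.hom]

theorem len_ne_top' {I : X.left.IdealSheafData} (hI : Models.specialFibreIdeal R X ≤ I) (i : ℕ) :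
    len R (ClSub.quotMod I) i ≠ ⊤ := by
  have : IsProper (X.left ↘ Spec (CommRingCat.of R)) := inferInstanceAs (IsProper X.hom)
  exact len_ne_top hI i

theorem lengthH_one_le (hdim : topologicalKrullDim (X.hom.fiber (IsLocalRing.closedPoint R)) ≤ 1)
    {I J : X.left.IdealSheafData} (hI : Models.specialFibreIdeal R X ≤ I) (h : I ≤ J) :
    Models.lengthH R X (ClSub.quotMod J) 1 ≤ Models.lengthH R X (ClSub.quotMod I) 1 := by
  have : IsLocallyNoetherian X.left := LocallyOfFiniteType.isLocallyNoetherian X.hom
  have h2 := subsingleton_HH X.hom hdim _ (Sga67.CohBasic.isCoh_kernel (Lef.quotMap h)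
    (VarietyB.DegCartier.isCoh_quotMod I) (VarietyB.DegCartier.isCoh_quotMod J).1) 2 le_rfl
  rw [lengthH_eq, lengthH_eq]
  exact ENat.toNat_le_toNat (len_one_le R h h2) (len_ne_top' X hI 1)

theorem lengthH_zero_le {I J : X.left.IdealSheafData} (hI : Models.specialFibreIdeal R X ≤ I) (h : I ≤ J)
    (hinj : Function.Injective (Scheme.IdealSheafData.inclusion h).appTop) :
    Models.lengthH R X (ClSub.quotMod I) 0 ≤ Models.lengthH R X (ClSub.quotMod J) 0 := by
  rw [lengthH_eq, lengthH_eq]
  exact ENat.toNat_le_toNat (len_zero_le R h hinj) (len_ne_top' X (hI.trans h) 0)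

theorem lengthH_zero_pos {I : X.left.IdealSheafData} (hI : Models.specialFibreIdeal R X ≤ I)
    (h : Nontrivial Γ(I.subscheme, ⊤)) : 0 < Models.lengthH R X (ClSub.quotMod I) 0 := by
  have h1 := len_zero_pos R h
  have h2 := len_ne_top' X hI 0
  rw [lengthH_eq, Nat.pos_iff_ne_zero]
  intro h0
  rcases (ENat.toNat_eq_zero).1 h0 with h3 | h3
  · exact h1.ne' h3
  · exact h2 h3

end LengthH

end Groth.Agent.Models.H68.FibGood
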